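import Cfsg.Agent.CosetCert.SLThreeFour.Data

/-! Machine-generated checks. -/

set_option maxRecDepth 10000

namespace Cfsg.Agent.CosetCert.SLThreeFour

open Cfsg.Agent.CosetCert

theorem facts_block2 : allB (fun k => Nat.ble data.nf k || data.cert.factOK k) 11 4096 = true := by
  decide +kernel

end Cfsg.Agent.CosetCert.SLThreeFour
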