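import Cfsg.Agent.CosetCert.SLThreeFour.Facts0
import Cfsg.Agent.CosetCert.SLThreeFour.Facts1
import Cfsg.Agent.CosetCert.SLThreeFour.Points
import Cfsg.Agent.CosetCert.SLThreeFour.Relators

/-! Machine-generated assembly. -/

set_option maxRecDepth 100000

namespace Cfsg.Agent.CosetCert.SLThreeFour

open Cfsg.Agent.CosetCert

/-- The subgroup words. -/
abbrev gensList : List (FreeGroup (Fin 2)) :=
  [ga]

theorem facts_all : ∀ k < data.nf, data.cert.factOK k = true := by
  intro k hk
  exact ((below_step (f := fun k => Nat.ble data.nf k || data.cert.factOK k) (below_step (f := fun k => Nat.ble data.nf k || data.cert.factOK k) (below_step (f := fun k => Nat.ble data.nf k || data.cert.factOK k) below_zero (fun i h hi => of_ble_or h hi) facts_block0) (fun i h hi => of_ble_or h hi) facts_block1) (fun i h hi => of_ble_or h hi) facts_block2) : ∀ i < 4096 + 2 ^ 11, i < data.nf → data.cert.factOK i = true)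
    k (lt_of_lt_of_le hk (by decide +kernel)) hk

theorem points_all : ∀ i < data.N, pointOK i = true := by
  intro k hk
  exact ((below_step (f := fun i => Nat.ble data.N i || pointOK i) (below_step (f := fun i => Nat.ble data.N i || pointOK i) (below_step (f := fun i => Nat.ble data.N i || pointOK i) below_zero (fun i h hi => of_ble_or h hi) point_block0) (fun i h hi => of_ble_or h hi) point_block1) (fun i h hi => of_ble_or h hi) point_block2) : ∀ i < 2048 + 2 ^ 10, i < data.N → pointOK i = true)
    k (lt_of_lt_of_le hk (by decide +kernel)) hk

theorem specs_all : ∀ i < data.N, data.specs.all (data.specOK i) = true := by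
  intro k hk
  exact ((below_step (f := fun i => Nat.ble data.N i || data.specs.all (data.specOK i)) (below_step (f := fun i => Nat.ble data.N i || data.specs.all (data.specOK i)) (below_step (f := fun i => Nat.ble data.N i || data.specs.all (data.specOK i)) below_zero (fun i h hi => of_ble_or h hi) spec_block0) (fun i h hi => of_ble_or h hi) spec_block1) (fun i h hi => of_ble_or h hi) spec_block2) : ∀ i < 2048 + 2 ^ 10, i < data.N → data.specs.all (data.specOK i) = true)
    k (lt_of_lt_of_le hk (by decide +kernel)) hk

theorem valid : data.Valid {r | r ∈ relList} {r | r ∈ gensList} where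
  letters := by unfold PresData.lettersOK; decide +kernel
  invs := by
    have h : ∀ l ∈ List.range (data.cols.length + 1),
        pval (data.act FreeGroup.of) [l, data.inv l] ∈ relList ∨
        data.act FreeGroup.of (data.inv l) = (data.act FreeGroup.of l)⁻¹ := by decide +kernel
    exact fun l hl => h l hl
  codes := by unfold PresData.codeOK; decide +kernel
  allCode := by intro a; fin_cases a <;> decide +kernel
  rels_le := by
    have h : ∀ r ∈ relList, ∃ u ∈ data.words,
        ∃ o ∈ List.range 2, data.codeWord r.toWord = u.rotate o := by decide +kernel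
    intro r hr
    obtain ⟨u, hu, o, -, ho⟩ := h r hr
    exact ⟨u, hu, o, ho⟩
  le_rels := by
    have h : ∀ u ∈ data.words, ∃ r ∈ relList,
        data.codeWord r.toWord = u := by decide +kernel
    intro u hu
    obtain ⟨r, hr, hru⟩ := h u hu
    exact ⟨r, hr, hru⟩
  subs_le := by
    have h : ∀ u ∈ data.subs, pval (data.act FreeGroup.of) u ∈ gensList := by decide +kernel
    exact h
  le_subs := by
    have h : ∀ s ∈ gensList, ∃ u ∈ data.subs, s = pval (data.act FreeGroup.of) u := by decide +kernel
    exact h
  subs_unpack := by decide +kernel
  pos := by decide +kernel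
  node_zero := by decide +kernel
  rules_ok := by
    have h : allB (fun i => Nat.ble data.nr i || data.ruleOK data.words (data.rules.get data.rw' i)) 8 0 = true := by
      decide +kernel
    exact fun i hi => of_ble_or (allB_spec_zero h (by decide +kernel) hi) hi
  facts := facts_all
  edge := fun i hi l hl => by
    have h := points_all i hi
    simp only [pointOK, Bool.and_eq_true, List.all_eq_true] at h
    exact h.1 l hl
  look_ok := fun i hi l hl => by
    have h := points_all i hi
    simp only [pointOK, Bool.and_eq_true, List.all_eq_true] at h
    exact h.2.1 l hl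
  spec := fun i hi s hs => List.all_eq_true.1 (specs_all i hi) s hs
  tree := fun i hi => by
    have h := points_all i hi
    simp only [pointOK, Bool.and_eq_true] at h
    exact h.2.2
  sub_fix := by decide +kernel

theorem word_letters : ∀ u ∈ data.words ++ data.subs, ∀ l ∈ u, 1 ≤ l ∧ l ≤ data.cols.length := by
  decide +kernel

theorem base_letters : ∀ s ∈ data.specs, ∀ l ∈ s.base, 1 ≤ l ∧ l ≤ data.cols.length := by
  decide +kernel

end Cfsg.Agent.CosetCert.SLThreeFour
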